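import Mathlib.GroupTheory.Index
import Mathlib.GroupTheory.OrderOfElement
import Mathlib.Algebra.GroupWithZero.Action.End
import Mathlib.Tactic.Abel
import Mathlib.Tactic.Group
import Mathlib.Tactic.Linarith

/-!
# Binary affine permutation groups, basic lemmas

`H` acts on the finite abelian group `V`, and every partial map preserving the `H`-orbits of
differences extends to an affine map.
-/

set_option autoImplicit false
set_option linter.unusedSectionVars false

namespace Cfsg.Lib.Class.Bin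

section card

variable {V : Type*} [AddCommGroup V] [Finite V]

theorem card_sup_mul_card_inf (A B : AddSubgroup V) :
    Nat.card ↥(A ⊔ B) * Nat.card ↥(A ⊓ B) = Nat.card A * Nat.card B := by
  have h1 := (B.addSubgroupOf (A ⊔ B)).card_mul_index
  have h2 := (B.addSubgroupOf A).card_mul_index
  rw [Nat.card_congr (AddSubgroup.addSubgroupOfEquivOfLe le_sup_right).toEquiv] at h1
  rw [← AddSubgroup.inf_addSubgroupOf_left,
    Nat.card_congr (AddSubgroup.addSubgroupOfEquivOfLe inf_le_left).toEquiv,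
    AddSubgroup.inf_addSubgroupOf_left] at h2
  have h3 : (B.addSubgroupOf (A ⊔ B)).index = (B.addSubgroupOf A).index :=
    AddSubgroup.relIndex_sup_right A B
  rw [← h1, ← h2, h3]
  ring

theorem card_sup_of_disj {A B : AddSubgroup V} (h : A ⊓ B = ⊥) :
    Nat.card ↥(A ⊔ B) = Nat.card A * Nat.card B := by
  rw [← card_sup_mul_card_inf, h, AddSubgroup.card_bot, mul_one]

theorem sup_eq_top_of_index_le {A B : AddSubgroup V} (h : A ⊓ B = ⊥)
    (hi : B.index ≤ Nat.card A) : A ⊔ B = ⊤ ∧ B.index = Nat.card A := by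
  have h1 := card_sup_of_disj h
  have h2 := B.card_mul_index
  have h3 : Nat.card ↥(A ⊔ B) ≤ Nat.card V := Nat.card_le_card_of_injective _ Subtype.val_injective
  have h4 : 0 < Nat.card B := Nat.card_pos
  have h5 : Nat.card A ≤ B.index := by
    rw [h1, ← h2, mul_comm] at h3
    exact Nat.le_of_mul_le_mul_left h3 h4
  refine ⟨AddSubgroup.eq_top_of_card_eq _ ?_, le_antisymm hi h5⟩
  rw [h1, ← h2, le_antisymm hi h5, mul_comm]

theorem eq_zero_of_mem {A B : AddSubgroup V} (h : A ⊓ B = ⊥) {x : V} (ha : x ∈ A) (hb : x ∈ B) :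
    x = 0 := AddSubgroup.mem_bot.1 (h ▸ AddSubgroup.mem_inf.2 ⟨ha, hb⟩)

end card

variable (H V : Type*) [Group H] [AddCommGroup V] [DistribMulAction H V]

/-- Partial isometries extend. -/
def Hom : Prop := ∀ (S : Set V) (φ : V → V),
  (∀ x ∈ S, ∀ y ∈ S, ∃ h : H, h • (x - y) = φ x - φ y) → ∃ (h : H) (b : V), ∀ x ∈ S, φ x = h • x + b

/-- Irreducibility. -/
def Irr : Prop := ∀ W : AddSubgroup V, (∀ h : H, ∀ w ∈ W, h • w ∈ W) → W = ⊥ ∨ W = ⊤

variable {H}

/-- The map `v ↦ h v - v`. -/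
def dl (h : H) : V →+ V := DistribSMul.toAddMonoidHom V h - AddMonoidHom.id V

/-- Fixed points. -/
def fx (h : H) : AddSubgroup V := (dl V h).ker

/-- The commutator space. -/
def im (h : H) : AddSubgroup V := (dl V h).range

variable {V}

theorem mem_fx {h : H} {v : V} : v ∈ fx V h ↔ h • v = v := sub_eq_zero

theorem mem_im {h : H} {d : V} : d ∈ im V h ↔ ∃ a : V, h • a = a + d :=
  ⟨fun ⟨a, ha⟩ => ⟨a, by rw [← ha]; show h • a = a + (h • a - a); abel⟩,
    fun ⟨a, ha⟩ => ⟨a, by show h • a - a = d; rw [ha]; abel⟩⟩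

theorem sub_mem_im (h : H) (a : V) : h • a - a ∈ im V h := ⟨a, rfl⟩

theorem index_fx (h : H) : (fx V h).index = Nat.card (im V h) := AddSubgroup.index_ker _

theorem smul_mem_im {s : H} (h : H) {d : V} (hd : d ∈ im V s) : h • d ∈ im V (h * s * h⁻¹) := by
  obtain ⟨a, ha⟩ := mem_im.1 hd
  exact mem_im.2 ⟨h • a, by rw [mul_smul, mul_smul, inv_smul_smul, ha, smul_add]⟩

/-- `τ` moves every vector `a` equivalent to `a + d` to `a + d`. -/
def IsTau (d : V) (τ : H) : Prop := ∀ (a : V) (h : H), h • a = a + d → τ • a = a + d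

theorem Hom.exists_tau (hH : Hom H V) (d : V) : ∃ τ : H, IsTau d τ := by
  classical
  by_cases hd : d = 0
  · exact ⟨1, fun a _ _ => by rw [hd, one_smul, add_zero]⟩
  have h0 : ∀ (a : V) (h : H), h • a = a + d → a ≠ 0 := by
    rintro a h ha rfl
    rw [smul_zero, zero_add] at ha
    exact hd ha.symm
  obtain ⟨τ, b, hτ⟩ := hH ({0} ∪ {a | ∃ h : H, h • a = a + d})
    (fun x => if x = 0 then 0 else x + d) (by
      rintro x (rfl | ⟨h, hx⟩) y (rfl | ⟨k, hy⟩)
      · exact ⟨1, by simp⟩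
      · exact ⟨k, by simp [h0 y k hy, hy]⟩
      · exact ⟨h, by simp [h0 x h hx, hx]⟩
      · exact ⟨1, by simp [h0 x h hx, h0 y k hy]⟩)
  have hb := hτ 0 (Or.inl rfl)
  simp only [if_true, smul_zero, zero_add] at hb
  refine ⟨τ, fun a h ha => ?_⟩
  have := hτ a (Or.inr ⟨h, ha⟩)
  simp only [h0 a h ha, if_false, ← hb, add_zero] at this
  exact this.symm

namespace IsTau

variable {d a : V} {τ h : H}

theorem neg (hτ : IsTau d τ) (ha : h • a = a + d) : τ • d = -d := by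
  have h1 := hτ (-(a + d)) h⁻¹ (by rw [smul_neg, ← ha, inv_smul_smul, ha]; abel)
  rw [smul_neg, smul_add, hτ a h ha] at h1
  calc τ • d = -(-(a + d + τ • d)) - (a + d) := by abel
    _ = -d := by rw [h1]; abel

theorem fx_le (hτ : IsTau d τ) (ha : h • a = a + d) : fx V h ≤ fx V τ := by
  intro x hx
  have h1 := hτ (a + x) h (by rw [smul_add, ha, mem_fx.1 hx]; abel)
  rw [smul_add, hτ a h ha] at h1
  rw [mem_fx]
  calc τ • x = (a + d + τ • x) - (a + d) := by abel
    _ = x := by rw [h1]; abel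

theorem swap (hτ : IsTau d τ) (ha : h • a = a + d) : τ • (a + d) = a := by
  rw [smul_add, hτ a h ha, hτ.neg ha]; abel

theorem ne_one (hτ : IsTau d τ) (ha : h • a = a + d) (hd : d ≠ 0) : τ ≠ 1 := by
  rintro rfl
  have := hτ a h ha
  rw [one_smul] at this
  exact hd (left_eq_add.1 this)

theorem mem_im (hτ : IsTau d τ) (ha : h • a = a + d) : d ∈ im V τ := Bin.mem_im.2 ⟨a, hτ a h ha⟩

end IsTau

theorem Hom.unip (hH : Hom H V) {h : H} {a d : V} (ha : h • a = a + d) (hd : h • d = d) :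
    d + d = 0 := by
  obtain ⟨τ, hτ⟩ := hH.exists_tau d
  have h1 := mem_fx.1 (hτ.fx_le ha (mem_fx.2 hd))
  rw [hτ.neg ha] at h1
  rw [← h1]
  nth_rewrite 2 [h1]
  abel

/-- Nontrivial elements with the smallest commutator space. -/
def X (V : Type*) [AddCommGroup V] [DistribMulAction H V] (q : ℕ) (s : H) : Prop :=
  s ≠ 1 ∧ Nat.card (im V s) = q

/-- The standing hypotheses. -/
structure Ctx (H V : Type*) [Group H] [AddCommGroup V] [DistribMulAction H V] (q : ℕ) : Prop where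
  hom : Hom H V
  irr : Irr H V
  faith : ∀ h : H, (∀ v : V, h • v = v) → h = 1
  min : ∀ h : H, h ≠ 1 → q ≤ Nat.card (im V h)
  ex : ∃ s : H, X V q s

variable [Finite V] {q : ℕ}

namespace Ctx

variable (c : Ctx H V q)
include c

theorem exists_ne_zero {s : H} (hs : s ≠ 1) : ∃ d ∈ im V s, d ≠ 0 := by
  by_contra h
  push Not at h
  exact hs (c.faith s fun v => sub_eq_zero.1 (h _ (sub_mem_im s v)))

theorem one_lt : 1 < q := by
  obtain ⟨s, hs, hq⟩ := c.ex
  obtain ⟨d, hd, hd0⟩ := c.exists_ne_zero hs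
  rw [← hq, AddSubgroup.one_lt_card_iff_ne_bot]
  intro h
  exact hd0 (AddSubgroup.mem_bot.1 (h ▸ hd))

theorem of_le {s h : H} (hs : X V q s) (hh : h ≠ 1) (hle : fx V s ≤ fx V h) :
    fx V s = fx V h ∧ X V q h := by
  have h1 := AddSubgroup.index_antitone hle
  rw [index_fx, index_fx, hs.2] at h1
  have h2 := le_antisymm h1 (c.min h hh)
  refine ⟨AddSubgroup.eq_of_le_of_card_ge hle ?_, hh, h2⟩
  have h3 := (fx V s).card_mul_index
  have h4 := (fx V h).card_mul_index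
  rw [index_fx, hs.2] at h3
  rw [index_fx, h2] at h4
  exact (Nat.eq_of_mul_eq_mul_right (by have := c.one_lt; omega) (h4.trans h3.symm)).le

theorem isTau {s : H} (hs : X V q s) {d : V} (hd : d ∈ im V s) (hd0 : d ≠ 0) : IsTau d s := by
  obtain ⟨a0, ha0⟩ := mem_im.1 hd
  obtain ⟨τ, hτ⟩ := c.hom.exists_tau d
  have h1 := (c.of_le hs (hτ.ne_one ha0 hd0) (hτ.fx_le ha0)).1
  intro a h ha
  have h2 : a - a0 ∈ fx V s := by
    rw [h1, mem_fx, smul_sub, hτ a h ha, hτ a0 s ha0]; abel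
  calc s • a = s • a0 + s • (a - a0) := by rw [← smul_add]; congr 1; abel
    _ = a + d := by rw [ha0, mem_fx.1 h2]; abel

theorem neg {s : H} (hs : X V q s) {d : V} (hd : d ∈ im V s) : s • d = -d := by
  by_cases hd0 : d = 0
  · rw [hd0, smul_zero, neg_zero]
  · obtain ⟨a, ha⟩ := mem_im.1 hd
    exact (c.isTau hs hd hd0).neg ha

theorem sq {s : H} (hs : X V q s) : s * s = 1 := c.faith _ fun v => by
  have h1 := c.neg hs (sub_mem_im s v)
  rw [smul_sub] at h1
  rw [mul_smul]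
  calc s • s • v = (s • s • v - s • v) + s • v := by abel
    _ = v := by rw [h1]; abel

theorem inv {s : H} (hs : X V q s) : s⁻¹ = s := inv_eq_of_mul_eq_one_right (c.sq hs)

theorem smul_smul {s : H} (hs : X V q s) (v : V) : s • s • v = v := by
  rw [← mul_smul, c.sq hs, one_smul]

theorem eq_of_mem {s t : H} (hs : X V q s) (ht : X V q t) {d : V} (hds : d ∈ im V s)
    (hdt : d ∈ im V t) (hd0 : d ≠ 0) : s = t := by
  obtain ⟨a, ha⟩ := mem_im.1 hds
  have h1 := c.isTau ht hdt hd0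
  by_contra hne
  have h2 : t * s ≠ 1 := fun h => hne ((eq_inv_of_mul_eq_one_right h).trans (c.inv ht))
  have h3 := (c.of_le hs h2 fun x hx => by
    rw [mem_fx, mul_smul, mem_fx.1 hx, mem_fx.1 (h1.fx_le ha hx)]).1
  have h4 : a ∈ fx V s := by rw [h3, mem_fx, mul_smul, ha, h1.swap ha]
  rw [mem_fx, ha] at h4
  exact hd0 (add_eq_left.1 h4)

theorem im_inf {s t : H} (hs : X V q s) (ht : X V q t) (hne : s ≠ t) : im V s ⊓ im V t = ⊥ :=
  (AddSubgroup.eq_bot_iff_forall _).2 fun _ hd => by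
    by_contra h0
    exact hne (c.eq_of_mem hs ht hd.1 hd.2 h0)

theorem conj {s : H} (hs : X V q s) (h : H) : X V q (h * s * h⁻¹) := by
  have h1 : h * s * h⁻¹ ≠ 1 := fun h1 => hs.1 (by
    calc s = h⁻¹ * (h * s * h⁻¹) * h := by group
      _ = 1 := by rw [h1]; group)
  refine ⟨h1, le_antisymm ?_ (c.min _ h1)⟩
  rw [← hs.2]
  refine Nat.card_le_card_of_injective (fun d => ⟨h⁻¹ • d.1, ?_⟩) fun d e hde => ?_
  · have := smul_mem_im h⁻¹ d.2
    rwa [show h⁻¹ * (h * s * h⁻¹) * h⁻¹⁻¹ = s by group] at this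
  · exact Subtype.ext (MulAction.injective h⁻¹ (congrArg Subtype.val hde))

theorem comm_of_mem {s t : H} (ht : X V q t) {d : V} (hds : d ∈ fx V s)
    (hdt : d ∈ im V t) (hd0 : d ≠ 0) : s * t = t * s := by
  have h1 := smul_mem_im s hdt
  rw [mem_fx.1 hds] at h1
  exact mul_inv_eq_iff_eq_mul.1 (c.eq_of_mem (c.conj ht s) ht h1 hdt hd0)

theorem im_le_of_comm {s t : H} (hs : X V q s) (ht : X V q t) (hne : s ≠ t)
    (hc : s * t = t * s) : im V t ≤ fx V s := by
  intro d hd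
  have h1 := smul_mem_im s hd
  rw [hc, mul_inv_cancel_right] at h1
  exact mem_fx.2 (sub_eq_zero.1 (eq_zero_of_mem (c.im_inf hs ht hne) (sub_mem_im s d) (sub_mem h1 hd)))

theorem fx_inf_im {s t : H} (ht : X V q t) (hc : s * t ≠ t * s) : fx V s ⊓ im V t = ⊥ :=
  (AddSubgroup.eq_bot_iff_forall _).2 fun _ hd => by
    by_contra h0
    exact hc (c.comm_of_mem ht hd.1 hd.2 h0)

/-- Splitting `V = P ⊕ V₀` for two distinct elements of `X`. -/
theorem split {s t : H} (hs : X V q s) (ht : X V q t) (hne : s ≠ t)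
    (hd : (im V s ⊔ im V t) ⊓ (fx V s ⊓ fx V t) = ⊥) :
    (im V s ⊔ im V t) ⊔ (fx V s ⊓ fx V t) = ⊤ ∧ (fx V s ⊓ fx V t).index = q * q ∧
      Nat.card ↥(im V s ⊔ im V t) = q * q := by
  have h1 : Nat.card ↥(im V s ⊔ im V t) = q * q := by
    rw [card_sup_of_disj (c.im_inf hs ht hne), hs.2, ht.2]
  have h2 := sup_eq_top_of_index_le hd (by
    rw [h1]
    refine AddSubgroup.index_inf_le.trans ?_
    rw [index_fx, index_fx, hs.2, ht.2])
  exact ⟨h2.1, h2.2.trans h1, h1⟩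

theorem disj_of_nc (h2 : (∀ x : V, x + x = 0) ∨ ∀ x : V, x + x = 0 → x = 0) {s t : H}
    (hs : X V q s) (ht : X V q t) (hc : s * t ≠ t * s) :
    (im V s ⊔ im V t) ⊓ (fx V s ⊓ fx V t) = ⊥ := by
  refine (AddSubgroup.eq_bot_iff_forall _).2 fun x hx => ?_
  obtain ⟨l, hl, l', hl', rfl⟩ := AddSubgroup.mem_sup.1 hx.1
  have e1 := mem_fx.1 hx.2.1
  have e2 := mem_fx.1 hx.2.2
  have e3 : s • l' = l' + (l + l) := by
    rw [smul_add, c.neg hs hl] at e1
    calc s • l' = (-l + s • l') + l := by abel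
      _ = _ := by rw [e1]; abel
  have e4 : t • l = l + (l' + l') := by
    rw [smul_add, c.neg ht hl'] at e2
    calc t • l = (t • l + -l') + l' := by abel
      _ = _ := by rw [e2]; abel
  rcases h2 with h2 | h2
  · rw [h2, add_zero] at e3 e4
    rw [eq_zero_of_mem (c.fx_inf_im ht hc) (mem_fx.2 e3) hl',
      eq_zero_of_mem (c.fx_inf_im hs (Ne.symm hc)) (mem_fx.2 e4) hl, add_zero]
  · refine h2 _ (h2 _ (c.hom.unip (h := s * t) (a := l) ?_ ?_))
    · rw [mul_smul, e4, smul_add, smul_add, e3, c.neg hs hl]; abel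
    · rw [smul_add, mul_smul, e2, e1]

theorem fx_mul {s t : H} (hs : X V q s) (ht : X V q t) (hne : s ≠ t) :
    fx V (s * t) = fx V s ⊓ fx V t := by
  refine le_antisymm (fun x hx => ?_) fun x hx => ?_
  · have h1 : t • x = s • x := by
      conv_rhs => rw [← mem_fx.1 hx, mul_smul, c.smul_smul hs]
    have h2 := eq_zero_of_mem (c.im_inf hs ht hne) (sub_mem_im s x) (h1 ▸ sub_mem_im t x)
    exact ⟨mem_fx.2 (sub_eq_zero.1 h2), mem_fx.2 (h1 ▸ sub_eq_zero.1 h2)⟩
  · rw [mem_fx, mul_smul, mem_fx.1 hx.2, mem_fx.1 hx.1]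

omit c in
theorem im_mul_le (s t : H) : im V (s * t) ≤ im V s ⊔ im V t := by
  rintro _ ⟨a, rfl⟩
  refine AddSubgroup.mem_sup.2 ⟨_, sub_mem_im s (t • a), _, sub_mem_im t a, ?_⟩
  show _ = (s * t) • a - a
  rw [mul_smul]; abel

theorem exists_pre {s t : H} (hs : X V q s) (ht : X V q t) (hne : s ≠ t)
    (hd : (im V s ⊔ im V t) ⊓ (fx V s ⊓ fx V t) = ⊥) {d : V} (hdP : d ∈ im V s ⊔ im V t) :
    ∃ a ∈ im V s ⊔ im V t, (s * t) • a = a + d := by
  obtain ⟨h1, h2, h3⟩ := c.split hs ht hne hd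
  have h4 : im V (s * t) = im V s ⊔ im V t :=
    AddSubgroup.eq_of_le_of_card_ge (im_mul_le s t)
      (by rw [← index_fx, c.fx_mul hs ht hne, h2, h3])
  obtain ⟨a0, ha0⟩ := mem_im.1 (h4 ▸ hdP : d ∈ im V (s * t))
  obtain ⟨a, ha, v, hv, rfl⟩ := AddSubgroup.mem_sup.1 (h1 ▸ AddSubgroup.mem_top a0)
  rw [← c.fx_mul hs ht hne] at hv
  refine ⟨a, ha, ?_⟩
  rw [smul_add, mem_fx.1 hv] at ha0
  calc (s * t) • a = ((s * t) • a + v) - v := by abel
    _ = a + d := by rw [ha0]; abel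

theorem exists_conj_ne {s : H} (hs : X V q s) (h : im V s ≠ ⊤) : ∃ g : H, g * s * g⁻¹ ≠ s := by
  by_contra hcon
  push Not at hcon
  rcases c.irr (im V s) (fun g w hw => hcon g ▸ smul_mem_im g hw) with h1 | h1
  · obtain ⟨d, hd, hd0⟩ := c.exists_ne_zero hs.1
    exact hd0 (AddSubgroup.mem_bot.1 (h1 ▸ hd))
  · exact h h1

theorem eq_top_of_conj {s : H} (hs : X V q s) {P : AddSubgroup V}
    (h : ∀ g : H, im V (g * s * g⁻¹) ≤ P) : P = ⊤ := by
  rcases c.irr (⨅ g : H, P.comap (DistribSMul.toAddMonoidHom V g)) (fun k w hw => by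
    rw [AddSubgroup.mem_iInf] at hw ⊢
    intro g
    have := hw (g * k)
    rw [AddSubgroup.mem_comap] at this ⊢
    simpa only [DistribSMul.toAddMonoidHom_apply, mul_smul] using this) with h1 | h1
  · obtain ⟨d, hd, hd0⟩ := c.exists_ne_zero hs.1
    refine absurd (AddSubgroup.mem_bot.1 (h1 ▸ ?_)) hd0
    exact AddSubgroup.mem_iInf.2 fun g => h g (smul_mem_im g hd)
  · rw [eq_top_iff]
    intro v _
    have := AddSubgroup.mem_iInf.1 (h1 ▸ AddSubgroup.mem_top v) 1
    simpa using this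

end Ctx

end Cfsg.Lib.Class.Bin
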