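import Cfsg.Agent.Class.Bin.A
import Mathlib.Dynamics.PeriodicPts.Lemmas
import Mathlib.Data.Nat.Factorization.Basic

/-!
# Binary affine permutation groups, characteristic two
-/

set_option autoImplicit false
set_option linter.unusedSectionVars false

namespace Cfsg.Lib.Class.Bin

variable {H V : Type*} [Group H] [AddCommGroup V] [DistribMulAction H V]

/-- The conclusion of the case analysis: `V` is a plane covered by the lines `im u`. -/
structure Plane (H V : Type*) [Group H] [AddCommGroup V] [DistribMulAction H V] (q : ℕ) : Prop where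
  nc : ∃ s t : H, X V q s ∧ X V q t ∧ fx V s ⊓ fx V t = ⊥
  card : Nat.card V = q * q
  fix : ∀ x : V, ∃ u : H, X V q u ∧ u • x = x

theorem IsTau.pow_odd {d : V} {τ : H} (hτ : IsTau d τ) (k : ℕ) : IsTau d (τ ^ (2 * k + 1)) := by
  intro a h ha
  induction k with
  | zero => simpa using hτ a h ha
  | succ k ih =>
    rw [show 2 * (k + 1) + 1 = 1 + (1 + (2 * k + 1)) by ring, pow_add, pow_add, pow_one, mul_smul,
      mul_smul, ih, hτ.swap ha, hτ a h ha]

theorem im_pow_le (h : H) (k : ℕ) : im V (h ^ k) ≤ im V h := by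
  rintro _ ⟨a, rfl⟩
  show h ^ k • a - a ∈ im V h
  induction k with
  | zero => simp
  | succ k ih =>
    have := add_mem (sub_mem_im h (h ^ k • a)) ih
    rwa [sub_add_sub_cancel, ← mul_smul, ← pow_succ'] at this

theorem smul_mem_sup [Finite V] {s t : H} {a : V} (ha : a ∈ im V s ⊔ im V t) :
    (s * t) • a ∈ im V s ⊔ im V t := by
  have := add_mem (Ctx.im_mul_le s t (sub_mem_im (s * t) a)) ha
  rwa [sub_add_cancel] at this

theorem Hom.cube (hH : Hom H V) (h2 : ∀ x : V, x + x = 0) {h : H} {v w z : V}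
    (hv : h • v = v + w) (hw : h • w = w + z) (hz : h • z = z) : z = 0 := by
  obtain ⟨τ, hτ⟩ := hH.exists_tau z
  have e1 : (h * h) • v = v + z := by
    rw [mul_smul, hv, smul_add, hv, hw, add_assoc, ← add_assoc w, h2, zero_add]
  have e2 : (h * h) • w = w := by
    rw [mul_smul, hw, smul_add, hw, hz, add_assoc, h2, add_zero]
  have e3 := hτ (v + w) (h * h) (by rw [smul_add, e1, e2]; abel)
  rw [smul_add, hτ v _ e1, hτ w _ hw] at e3
  calc z = (v + z + (w + z)) - (v + w + z) := by abel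
    _ = 0 := by rw [e3, sub_self]

variable [Finite V] {q : ℕ}

namespace Ctx

variable (c : Ctx H V q) (h2 : ∀ x : V, x + x = 0)
include c h2

theorem sq_of_four {h : H} (h4 : (h * h) * (h * h) = 1) : h * h = 1 := by
  have hn : ∀ x : V, -x = x := fun x => neg_eq_of_add_eq_zero_left (h2 x)
  have key : ∀ v : V, (h * h) • (h • v - v) = h • v - v → (h * h) • v = v := by
    intro v hv
    have := c.hom.cube h2 (h := h) (v := v) (w := h • v - v) (z := (h * h) • v - v) (by abel)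
      (by rw [smul_sub, mul_smul, sub_eq_add_neg _ (h • v), hn (h • v), sub_eq_add_neg _ v,
        sub_eq_add_neg _ v, hn v]
          calc h • h • v + h • v = h • h • v + h • v + (v + v) := by rw [h2, add_zero]
            _ = _ := by abel)
      (by
        rw [smul_sub, ← mul_smul] at hv ⊢
        rw [← mul_assoc]
        calc (h * h * h) • v - h • v = ((h * h * h) • v - (h * h) • v) + ((h * h) • v - h • v) := by
              abel
          _ = _ := by rw [hv]; abel)
    exact sub_eq_zero.1 this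
  refine c.faith _ fun v => key v (key _ ?_)
  have e1 : h • (h • v - v) - (h • v - v) = (h * h) • v - v := by
    rw [smul_sub, ← mul_smul]
    calc (h * h) • v - h • v - (h • v - v) = (h * h) • v - v - (h • v + h • v) + (v + v) := by abel
      _ = _ := by rw [h2, h2, sub_zero, add_zero]
  rw [e1, smul_sub, ← mul_smul, h4, one_smul, ← neg_sub, hn]

theorem sq_of_two_pow {h : H} (k : ℕ) (hk : h ^ 2 ^ k = 1) : h * h = 1 := by
  induction k generalizing h with
  | zero => rw [pow_zero, pow_one] at hk; rw [hk, mul_one]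
  | succ k ih => exact c.sq_of_four h2 (ih (by rw [← pow_two, ← pow_mul, ← pow_succ', hk]))

theorem exists_inv_tau [Finite H] (d : V) : ∃ τ : H, IsTau d τ ∧ τ * τ = 1 := by
  obtain ⟨τ, hτ⟩ := c.hom.exists_tau d
  obtain ⟨k, m, ⟨j, rfl⟩, hk⟩ := Nat.exists_eq_two_pow_mul_odd (orderOf_pos τ).ne'
  exact ⟨_, hτ.pow_odd j, c.sq_of_two_pow h2 k (by
    rw [← pow_mul, mul_comm, ← hk, pow_orderOf_eq_one])⟩

omit c in
theorem im_le_fx {τ : H} (hτ : τ * τ = 1) : im V τ ≤ fx V τ := by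
  rintro _ ⟨a, rfl⟩
  show τ • a - a ∈ fx V τ
  rw [mem_fx, smul_sub, ← mul_smul, hτ, one_smul, ← neg_sub]
  exact neg_eq_of_add_eq_zero_left (h2 _)

theorem cover_even [Finite H] {s t : H} (hs : X V q s) (ht : X V q t) (hc : s * t ≠ t * s) {δ : V}
    (hδ : δ ∈ im V s ⊔ im V t) (hδ0 : δ ≠ 0) : ∃ u : H, X V q u ∧ δ ∈ im V u := by
  have hne : s ≠ t := fun h => hc (by rw [h])
  have hd := c.disj_of_nc (Or.inl h2) hs ht hc
  obtain ⟨h1, h3, h4⟩ := c.split hs ht hne hd
  obtain ⟨a, -, ha⟩ := c.exists_pre hs ht hne hd hδ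
  obtain ⟨τ, hτ, hτ2⟩ := c.exists_inv_tau h2 δ
  have hV : fx V s ⊓ fx V t ≤ fx V τ := c.fx_mul hs ht hne ▸ hτ.fx_le ha
  have hτ1 := hτ.ne_one ha hδ0
  refine ⟨τ, ⟨hτ1, le_antisymm ?_ (c.min τ hτ1)⟩, hτ.mem_im ha⟩
  have h5 : im V τ ⊓ (fx V s ⊓ fx V t) = ⊥ := by
    refine (AddSubgroup.eq_bot_iff_forall _).2 fun v hv => ?_
    obtain ⟨b0, hb0⟩ := mem_im.1 hv.1
    obtain ⟨b, hb, w, hw, rfl⟩ := AddSubgroup.mem_sup.1 (h1 ▸ AddSubgroup.mem_top b0)
    have hbv : τ • b = b + v := by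
      rw [smul_add, mem_fx.1 (hV hw)] at hb0
      calc τ • b = (τ • b + w) - w := by abel
        _ = b + v := by rw [hb0]; abel
    have hrv : (s * t) • v = v := mem_fx.1 (by rw [c.fx_mul hs ht hne]; exact hv.2)
    obtain ⟨σ, hσ⟩ := c.hom.exists_tau v
    have hD : ∀ i : ℕ, σ • (s * t) ^ i • b = (s * t) ^ i • b + v := by
      intro i
      refine hσ _ ((s * t) ^ i * τ * ((s * t) ^ i)⁻¹) ?_
      rw [mul_smul, mul_smul, inv_smul_smul, hbv, smul_add,
        MulAction.mem_stabilizer_iff.1 (pow_mem (MulAction.mem_stabilizer_iff.2 hrv) i)]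
    let f : ↥(im V s ⊔ im V t) → ↥(im V s ⊔ im V t) := fun x =>
      ⟨(s * t) • x.1 - x.1, sub_mem (smul_mem_sup x.2) x.2⟩
    have hf : Function.Injective f := by
      intro x y hxy
      have e1 : (s * t) • x.1 - x.1 = (s * t) • y.1 - y.1 := congrArg Subtype.val hxy
      have e2 : x.1 - y.1 ∈ fx V (s * t) := by
        rw [mem_fx, smul_sub]
        calc (s * t) • x.1 - (s * t) • y.1 = ((s * t) • x.1 - x.1) - ((s * t) • y.1 - y.1) +
              (x.1 - y.1) := by abel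
          _ = _ := by rw [e1, sub_self, zero_add]
      rw [c.fx_mul hs ht hne] at e2
      exact Subtype.ext (sub_eq_zero.1 (eq_zero_of_mem hd (sub_mem x.2 y.2) e2))
    obtain ⟨n, hn, hper⟩ := Function.mem_periodicPts.1 (hf.mem_periodicPts ⟨b, hb⟩)
    have hQ : ∀ n : ℕ, ∀ i : ℕ, σ • (s * t) ^ i • (f^[n + 1] ⟨b, hb⟩).1 =
        (s * t) ^ i • (f^[n + 1] ⟨b, hb⟩).1 := by
      intro n
      induction n with
      | zero =>
        intro i
        show σ • (s * t) ^ i • ((s * t) • b - b) = (s * t) ^ i • ((s * t) • b - b)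
        rw [smul_sub, ← mul_smul, ← pow_succ, smul_sub, hD, hD]
        abel
      | succ n ih =>
        intro i
        rw [Function.iterate_succ_apply']
        show σ • (s * t) ^ i • ((s * t) • _ - _) = (s * t) ^ i • ((s * t) • _ - _)
        rw [smul_sub, ← mul_smul, ← pow_succ, smul_sub, ih, ih]
    obtain ⟨n, rfl⟩ : ∃ m, n = m + 1 := ⟨n - 1, by omega⟩
    have e1 := hQ n 0
    rw [show f^[n + 1] ⟨b, hb⟩ = ⟨b, hb⟩ from hper] at e1
    have e2 := hD 0
    rw [e1] at e2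
    exact left_eq_add.1 e2
  have h6 : Nat.card ↥(im V τ ⊔ (fx V s ⊓ fx V t)) ≤ Nat.card (fx V τ) :=
    AddSubgroup.card_le_of_le (sup_le (im_le_fx h2 hτ2) hV)
  rw [card_sup_of_disj h5] at h6
  have h7 := (fx V τ).card_mul_index
  have h8 := (fx V s ⊓ fx V t).card_mul_index
  rw [index_fx] at h7
  rw [h3, ← h7] at h8
  have h9 : 0 < Nat.card ↥(fx V s ⊓ fx V t) := Nat.card_pos
  rw [← Nat.mul_self_le_mul_self_iff]
  refine Nat.le_of_mul_le_mul_left ?_ h9
  rw [h8]
  nlinarith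

theorem not_comm_conj [Finite H] {s : H} (hs : X V q s) (h : H) (hne : h * s * h⁻¹ ≠ s) :
    s * (h * s * h⁻¹) ≠ (h * s * h⁻¹) * s := by
  intro hc
  obtain ⟨a, ha, ha0⟩ := c.exists_ne_zero hs.1
  have hs' := c.conj hs h
  obtain ⟨g, hg, hg2⟩ := c.exists_inv_tau h2 (h • a - a)
  have e1 : h • a = a + (h • a - a) := by abel
  have e2 : g • a = h • a := (hg a h e1).trans e1.symm
  have e3 : g * s * g⁻¹ = h * s * h⁻¹ := c.eq_of_mem (c.conj hs g) hs' (smul_mem_im g ha)
    (e2 ▸ smul_mem_im h ha) (fun h0 => ha0 (MulAction.injective g (h0.trans (smul_zero g).symm)))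
  have e4 : g⁻¹ = g := inv_eq_of_mul_eq_one_right hg2
  have e5 : g * s * (g * s) = h * s * h⁻¹ * s := by rw [← e3, e4]; group
  have e6 := c.sq_of_four h2 (h := g * s) (by
    rw [e5]
    calc h * s * h⁻¹ * s * (h * s * h⁻¹ * s) = h * s * h⁻¹ * (s * (h * s * h⁻¹)) * s := by group
      _ = (h * s * h⁻¹ * (h * s * h⁻¹)) * (s * s) := by rw [hc]; group
      _ = 1 := by rw [c.sq hs', c.sq hs, mul_one])
  rw [e5] at e6
  exact hne ((eq_inv_of_mul_eq_one_left e6).trans (c.inv hs))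

theorem comm_of_fx_le {s u w : H} (hs : X V q s) (hu : u * u = 1) (hc : u * s = s * u)
    (hle : fx V u ≤ fx V w) : w * s = s * w := by
  obtain ⟨d, hd, hd0⟩ := c.exists_ne_zero hs.1
  by_cases h : u • d = d
  · exact c.comm_of_mem hs (hle (mem_fx.2 h)) hd hd0
  · have h1 := smul_mem_im u hd
    rw [hc, mul_inv_cancel_right] at h1
    exact c.comm_of_mem hs (hle (im_le_fx h2 hu (sub_mem_im u d))) (sub_mem h1 hd)
      (sub_ne_zero.2 h)

theorem conj_of_nc [Finite H] {s w : H} (hs : X V q s) (hw : X V q w) (hc : s * w ≠ w * s) :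
    ∃ g : H, g * w * g⁻¹ = s := by
  have hinv : ∀ j : ℕ, w * (s * w) ^ j = ((s * w) ^ j)⁻¹ * w := by
    intro j
    have : w * (s * w) * w⁻¹ = (s * w)⁻¹ := by
      rw [mul_inv_rev, c.inv hs, mul_assoc, mul_inv_cancel_right, c.inv hw]
    rw [← inv_pow, ← this, conj_pow, inv_mul_cancel_right]
  rcases Nat.even_or_odd' (orderOf (s * w)) with ⟨k, hk | hk⟩
  · exfalso
    have hk0 : 0 < k := by have := orderOf_pos (s * w); omega
    have u1 : (s * w) ^ k ≠ 1 := pow_ne_one_of_lt_orderOf hk0.ne' (by omega)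
    have u2 : (s * w) ^ k * (s * w) ^ k = 1 := by
      rw [← pow_add, ← two_mul, ← hk, pow_orderOf_eq_one]
    have u3 : (s * w) ^ k * w = w * (s * w) ^ k := by
      rw [hinv, inv_eq_of_mul_eq_one_right u2]
    have u4 : (s * w) ^ k * s = s * (s * w) ^ k := by
      have : (s * w) ^ k * (s * w) = s * w * (s * w) ^ k := (pow_succ _ _).symm.trans (pow_succ' _ _)
      calc (s * w) ^ k * s = (s * w) ^ k * (s * w) * w⁻¹ := by group
        _ = s * ((s * w) ^ k * w) * w⁻¹ := by rw [this, u3]; group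
        _ = _ := by group
    obtain ⟨ε, hε, hε0⟩ := c.exists_ne_zero u1
    have hεP := im_mul_le s w (im_pow_le _ k hε)
    obtain ⟨u, hu, hεu⟩ := c.cover_even h2 hs hw hc hεP hε0
    obtain ⟨a, ha⟩ := mem_im.1 hε
    have hle := (c.isTau hu hεu hε0).fx_le ha
    have c1 := c.comm_of_fx_le h2 hs u2 u4 hle
    have c2 := c.comm_of_fx_le h2 hw u2 u3 hle
    have n1 : s ≠ u := by rintro rfl; exact hc c2
    have n2 : w ≠ u := by rintro rfl; exact hc c1.symm
    exact hε0 (eq_zero_of_mem (c.disj_of_nc (Or.inl h2) hs hw hc) hεP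
      ⟨c.im_le_of_comm hs hu n1 c1.symm hεu, c.im_le_of_comm hw hu n2 c2.symm hεu⟩)
  · refine ⟨((s * w) ^ k)⁻¹, ?_⟩
    have e1 : (s * w) ^ k * (s * w) ^ k * (s * w) = 1 := by
      rw [← pow_add, ← pow_succ, ← two_mul, ← hk, pow_orderOf_eq_one]
    rw [inv_inv, mul_assoc, hinv, ← mul_assoc, ← mul_inv_rev, inv_eq_of_mul_eq_one_right e1,
      mul_assoc, c.sq hw, mul_one]

theorem plane_even [Finite H] : Plane H V q := by
  obtain ⟨s, hs⟩ := c.ex
  obtain ⟨h, hh⟩ := c.exists_conj_ne hs (fun h => hs.1 (c.faith s fun v =>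
    mem_fx.1 (im_le_fx h2 (c.sq hs) (h ▸ AddSubgroup.mem_top v))))
  have ht := c.conj hs h
  have hc := c.not_comm_conj h2 hs h hh
  generalize h * s * h⁻¹ = t at hh ht hc
  have hd := c.disj_of_nc (Or.inl h2) hs ht hc
  obtain ⟨h1, h3, h4⟩ := c.split hs ht hh.symm hd
  obtain ⟨g0, hg0⟩ := c.conj_of_nc h2 hs ht hc
  have hP : im V s ⊔ im V t = ⊤ := by
    refine c.eq_top_of_conj hs fun g => ?_
    have hu := c.conj hs g
    have e1 : (im V s ⊔ im V t) ⊓ fx V (g * s * g⁻¹) ≤ im V (g * s * g⁻¹) := by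
      intro δ hδ
      by_cases hδ0 : δ = 0
      · rw [hδ0]; exact zero_mem _
      obtain ⟨w, hw, hδw⟩ := c.cover_even h2 hs ht hc hδ.1 hδ0
      have c1 := c.comm_of_mem hw hδ.2 hδw hδ0
      obtain ⟨k, hk⟩ : ∃ k : H, k * w * k⁻¹ = s := by
        by_cases c2 : s * w = w * s
        · by_cases c3 : t * w = w * t
          · have n1 : s ≠ w := by rintro rfl; exact hc c3.symm
            have n2 : t ≠ w := by rintro rfl; exact hc c2
            exact absurd (eq_zero_of_mem hd hδ.1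
              ⟨c.im_le_of_comm hs hw n1 c2 hδw, c.im_le_of_comm ht hw n2 c3 hδw⟩) hδ0
          · obtain ⟨k, hk⟩ := c.conj_of_nc h2 ht hw c3
            exact ⟨g0 * k, by rw [← hg0, ← hk]; group⟩
        · exact c.conj_of_nc h2 hs hw c2
      have e2 : g * s * g⁻¹ = (g * k) * w * (g * k)⁻¹ := by rw [← hk]; group
      rw [e2] at c1 ⊢
      by_contra hn
      exact c.not_comm_conj h2 hw (g * k) (fun h => hn (h.symm ▸ hδw)) c1.symm
    have e2 : Nat.card (im V (g * s * g⁻¹)) ≤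
        Nat.card ↥((im V s ⊔ im V t) ⊓ fx V (g * s * g⁻¹)) := by
      have e3 := card_sup_mul_card_inf (im V s ⊔ im V t) (fx V (g * s * g⁻¹))
      have e4 := (fx V (g * s * g⁻¹)).card_mul_index
      have e5 : Nat.card ↥((im V s ⊔ im V t) ⊔ fx V (g * s * g⁻¹)) ≤ Nat.card V :=
        Nat.card_le_card_of_injective _ Subtype.val_injective
      rw [index_fx, hu.2] at e4
      rw [h4] at e3
      rw [hu.2]
      have e6 : 0 < Nat.card V := Nat.card_pos
      refine Nat.le_of_mul_le_mul_left ?_ e6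
      calc Nat.card V * q = q * q * Nat.card (fx V (g * s * g⁻¹)) := by rw [← e4]; ring
        _ ≤ _ := by rw [← e3]; exact Nat.mul_le_mul_right _ e5
    rw [← AddSubgroup.eq_of_le_of_card_ge e1 e2]
    exact inf_le_left
  rw [hP] at hd h4
  refine ⟨⟨s, t, hs, ht, by simpa using hd⟩, by simpa using h4, fun x => ?_⟩
  by_cases hx : x = 0
  · exact ⟨s, hs, by rw [hx, smul_zero]⟩
  · obtain ⟨u, hu, hxu⟩ := c.cover_even h2 hs ht hc (hP ▸ AddSubgroup.mem_top x) hx
    exact ⟨u, hu, mem_fx.1 (im_le_fx h2 (c.sq hu) hxu)⟩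

end Ctx

end Cfsg.Lib.Class.Bin
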