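import Cfsg.Agent.Class.Bin.B
import Mathlib.LinearAlgebra.Matrix.Charpoly.Coeff
import Mathlib.Algebra.Field.ZMod
import Mathlib.GroupTheory.SpecificGroups.Cyclic

/-!
# Binary affine permutation groups, odd characteristic
-/

set_option autoImplicit false
set_option linter.unusedSectionVars false

namespace Cfsg.Lib.Class.Bin

/-- A symmetric anisotropic orthogonality relation has two vectors without a common
perpendicular. -/
theorem friend {V : Type*} [AddCommGroup V] [Finite V] {p : ℕ} (hp : p.Prime)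
    (hV : ∀ v : V, p • v = 0) (U : AddSubgroup V) (pp : V → AddSubgroup V)
    (symm : ∀ x y, x ∈ pp y → y ∈ pp x) (an : ∀ x, x ∈ pp x → x = 0)
    (h : ∀ x ∈ U, ∀ y ∈ U, pp x ⊓ pp y ⊓ U ≠ ⊥) : False := by
  classical
  have := Fact.mk hp
  have := Fintype.ofFinite U
  let A : Matrix U U (ZMod p) := fun x y => if x.1 ∈ pp y.1 then 1 else 0
  have h1 : A ^ 2 = 0 := by
    ext x y
    obtain ⟨⟨z, hz⟩, hz0⟩ := (AddSubgroup.ne_bot_iff_exists_ne_zero).1 (h x x.2 y y.2)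
    have h2 : p ∣ Nat.card ((pp x.1 ⊓ pp y.1).addSubgroupOf U) := by
      have := AddSubgroup.addOrderOf_dvd_natCard ((pp x.1 ⊓ pp y.1).addSubgroupOf U)
        (x := ⟨z, hz.2⟩) hz.1
      rwa [addOrderOf_eq_prime (p := p) (x := (⟨z, hz.2⟩ : U)) (Subtype.ext (hV z))
        (fun h0 => hz0 (Subtype.ext (show z = 0 from congrArg Subtype.val h0)))] at this
    rw [pow_two, Matrix.mul_apply, Matrix.zero_apply, ← (ZMod.natCast_eq_zero_iff _ p).2 h2,
      Nat.card_eq_fintype_card, Fintype.card_subtype, Finset.card_filter, Nat.cast_sum]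
    refine Finset.sum_congr rfl fun w _ => ?_
    by_cases h3 : w.1 ∈ pp x.1
    · by_cases h4 : w.1 ∈ pp y.1
      · simp [A, AddSubgroup.mem_addSubgroupOf, h3, h4, symm _ _ h3]
      · simp [A, AddSubgroup.mem_addSubgroupOf, h4]
    · have h5 : x.1 ∉ pp w.1 := fun h5 => h3 (symm _ _ h5)
      simp [A, AddSubgroup.mem_addSubgroupOf, h3, h5]
  have h2 := (Matrix.isNilpotent_trace_of_isNilpotent ⟨2, h1⟩).eq_zero
  rw [Matrix.trace, Finset.sum_eq_single (0 : U) (fun x _ hx => by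
    have : x.1 ∉ pp x.1 := fun h => hx (Subtype.ext (an _ h))
    simp [A, Matrix.diag, this]) (by simp)] at h2
  simp [A, Matrix.diag] at h2

variable {H V : Type*} [Group H] [AddCommGroup V] [DistribMulAction H V] [Finite V] {q : ℕ}

theorem card_le_inf {A B U : AddSubgroup V} (hA : A ≤ U) (hB : B ≤ U) :
    Nat.card A * Nat.card B ≤ Nat.card U * Nat.card ↥(A ⊓ B) := by
  rw [← card_sup_mul_card_inf]
  exact Nat.mul_le_mul_right _ (AddSubgroup.card_le_of_le (sup_le hA hB))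

namespace Ctx

variable (c : Ctx H V q)
include c

theorem eq_top_of_orbit {P : AddSubgroup V} {d : V} (hd0 : d ≠ 0) (h : ∀ g : H, g • d ∈ P) :
    P = ⊤ := by
  rcases c.irr (⨅ g : H, P.comap (DistribSMul.toAddMonoidHom V g)) (fun k w hw => by
    rw [AddSubgroup.mem_iInf] at hw ⊢
    intro g
    have := hw (g * k)
    rw [AddSubgroup.mem_comap] at this ⊢
    simpa only [DistribSMul.toAddMonoidHom_apply, mul_smul] using this) with h1 | h1
  · exact absurd (AddSubgroup.mem_bot.1 (h1 ▸ AddSubgroup.mem_iInf.2 h)) hd0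
  · rw [eq_top_iff]
    intro v _
    have := AddSubgroup.mem_iInf.1 (h1 ▸ AddSubgroup.mem_top v) 1
    simpa using this

theorem exists_neg : ∃ m : H, ∀ x : V, m • x = -x := by
  have key : ∀ (x : V) (k : H), ∃ h : H, h • (x - k • x) = -x - -(k • x) := by
    intro x k
    obtain ⟨τ, hτ⟩ := c.hom.exists_tau (k • x - x)
    refine ⟨τ, ?_⟩
    rw [← neg_sub, smul_neg, hτ.neg (a := x) (h := k) (by abel)]
    abel
  obtain ⟨s, hs, -⟩ := c.ex
  obtain ⟨d, ⟨x0, rfl⟩, hd0⟩ := c.exists_ne_zero hs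
  obtain ⟨m, b, hm⟩ := c.hom (MulAction.orbit H x0) (fun x => -x) (by
    rintro _ ⟨g, rfl⟩ _ ⟨k, rfl⟩
    have := key (g • x0) (k * g⁻¹)
    rwa [mul_smul, inv_smul_smul] at this)
  have h1 := c.eq_top_of_orbit (P := (DistribSMul.toAddMonoidHom V m + AddMonoidHom.id V).ker) hd0
    fun g => by
      show m • g • (s • x0 - x0) + g • (s • x0 - x0) = 0
      have e1 : -((g * s) • x0) = m • (g * s) • x0 + b := hm _ ⟨g * s, rfl⟩
      have e2 : -(g • x0) = m • g • x0 + b := hm _ ⟨g, rfl⟩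
      rw [smul_sub, ← mul_smul g s, smul_sub]
      calc _ = (m • (g * s) • x0 + b) - (m • g • x0 + b) + ((g * s) • x0 - g • x0) := by abel
        _ = 0 := by rw [← e1, ← e2]; abel
  refine ⟨m, fun x => eq_neg_of_add_eq_zero_left ?_⟩
  exact (h1 ▸ AddSubgroup.mem_top x : x ∈ (DistribSMul.toAddMonoidHom V m + AddMonoidHom.id V).ker)

/-- The generalised reflection in `y`. -/
noncomputable def rho (y : V) : H := (c.hom.exists_tau (y + y)).choose

theorem rho_tau (y : V) : IsTau (y + y) (c.rho y) := (c.hom.exists_tau (y + y)).choose_spec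

theorem rho_neg (y : V) : c.rho y • y = -y := by
  obtain ⟨m, hm⟩ := c.exists_neg
  have := c.rho_tau y (-y) m (by rw [hm]; abel)
  rw [smul_neg] at this
  rw [← neg_neg (c.rho y • y), this]
  abel

theorem le_rho {y : V} {g : H} (hg : g • y = -y) : fx V g ≤ fx V (c.rho y) :=
  (c.rho_tau y).fx_le (a := -y) (by rw [smul_neg, hg]; abel)

theorem rho_symm {x y : V} (h : x ∈ fx V (c.rho y)) : y ∈ fx V (c.rho x) := by
  obtain ⟨m, hm⟩ := c.exists_neg
  refine c.le_rho (g := m * c.rho y) (by rw [mul_smul, mem_fx.1 h, hm]) ?_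
  rw [mem_fx, mul_smul, c.rho_neg, hm, neg_neg]

theorem rho_sq (y v : V) : c.rho y • c.rho y • v = v := by
  obtain ⟨m, hm⟩ := c.exists_neg
  obtain ⟨σ, hσ⟩ := c.hom.exists_tau (-(c.rho y • v) - v)
  have e1 : (m * c.rho y) • v = v + (-(c.rho y • v) - v) := by rw [mul_smul, hm]; abel
  have e2 := mem_fx.1 (c.rho_symm (c.le_rho (hσ.neg e1) (hσ.fx_le e1 (show y ∈ _ by
    rw [mem_fx, mul_smul, c.rho_neg, hm, neg_neg]))))
  rw [smul_sub, smul_neg] at e2
  calc c.rho y • c.rho y • v = -(-(c.rho y • c.rho y • v) - c.rho y • v) - c.rho y • v := by abel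
    _ = v := by rw [e2]; abel

theorem neg_of_mem_rho {y v : V} (h : v ∈ im V (c.rho y)) : c.rho y • v = -v := by
  obtain ⟨a, rfl⟩ := h
  show c.rho y • (c.rho y • a - a) = -(c.rho y • a - a)
  rw [smul_sub, c.rho_sq, neg_sub]

theorem im_le_rho {x y : V} (h : x ∈ fx V (c.rho y)) : im V (c.rho y) ≤ fx V (c.rho x) :=
  fun _ hv => c.rho_symm (c.le_rho (c.neg_of_mem_rho hv) h)

variable (h2 : ∀ x : V, x + x = 0 → x = 0)
include h2

omit c in
theorem zero_of_neg {x : V} (h : x = -x) : x = 0 := h2 x (add_eq_zero_iff_eq_neg.2 h)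

theorem rho_an {y : V} (h : y ∈ fx V (c.rho y)) : y = 0 :=
  zero_of_neg h2 ((mem_fx.1 h).symm.trans (c.rho_neg y))

theorem rho_ne {y : V} (hy : y ≠ 0) : c.rho y ≠ 1 := fun h =>
  hy (c.rho_an h2 (by rw [h, mem_fx, one_smul]))

theorem mem_rho (y : V) : y ∈ im V (c.rho y) := by
  have hi : Function.Injective fun x : V => x + x := fun x z hxz =>
    sub_eq_zero.1 (h2 _ (by
      calc x - z + (x - z) = (x + x) - (z + z) := by abel
        _ = 0 := sub_eq_zero.2 hxz))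
  obtain ⟨a, ha⟩ := Finite.surjective_of_injective hi (-y)
  have e1 : c.rho y • a = -a := hi (by
    show c.rho y • a + c.rho y • a = -a + -a
    rw [← smul_add, ← neg_add, show a + a = -y from ha, smul_neg, c.rho_neg])
  refine mem_im.2 ⟨a, ?_⟩
  rw [e1, ← neg_neg y, ← show a + a = -y from ha]
  abel

theorem rho_eq {s : H} (hs : X V q s) {y : V} (hy : y ∈ im V s) (hy0 : y ≠ 0) : c.rho y = s :=
  c.eq_of_mem (c.of_le hs (c.rho_ne h2 hy0) (c.le_rho (c.neg hs hy))).2 hs (c.mem_rho h2 y) hy hy0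

theorem disj_odd {s t : H} (hs : X V q s) (ht : X V q t) (hne : s ≠ t) :
    (im V s ⊔ im V t) ⊓ (fx V s ⊓ fx V t) = ⊥ := by
  by_cases hc : s * t = t * s
  · refine (AddSubgroup.eq_bot_iff_forall _).2 fun x hx => ?_
    obtain ⟨l, hl, l', hl', rfl⟩ := AddSubgroup.mem_sup.1 hx.1
    have e1 := mem_fx.1 hx.2.1
    have e2 := mem_fx.1 hx.2.2
    rw [smul_add, c.neg hs hl, mem_fx.1 (c.im_le_of_comm hs ht hne hc hl')] at e1
    rw [smul_add, c.neg ht hl', mem_fx.1 (c.im_le_of_comm ht hs hne.symm hc.symm hl)] at e2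
    rw [zero_of_neg h2 (add_right_cancel e1).symm, zero_of_neg h2 (add_left_cancel e2).symm,
      add_zero]
  · exact c.disj_of_nc (Or.inr h2) hs ht hc

theorem V0_le {s t : H} (hs : X V q s) (ht : X V q t) (hne : s ≠ t) {y : V}
    (hy : y ∈ im V s ⊔ im V t) : fx V s ⊓ fx V t ≤ fx V (c.rho y) := by
  obtain ⟨a, -, ha⟩ := c.exists_pre hs ht hne (c.disj_odd h2 hs ht hne) (add_mem hy hy)
  exact c.fx_mul hs ht hne ▸ (c.rho_tau y).fx_le ha

theorem im_rho_le {s t : H} (hs : X V q s) (ht : X V q t) (hne : s ≠ t) {y : V}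
    (hy : y ∈ im V s ⊔ im V t) : im V (c.rho y) ≤ im V s ⊔ im V t := by
  intro v hv
  obtain ⟨a, ha, w, hw, rfl⟩ := AddSubgroup.mem_sup.1
    ((c.split hs ht hne (c.disj_odd h2 hs ht hne)).1 ▸ AddSubgroup.mem_top v)
  have e1 := sub_mem (c.im_le_rho (c.V0_le h2 hs ht hne hy hw) hv)
    (c.rho_symm (c.V0_le h2 hs ht hne ha hw))
  rw [add_sub_cancel_left] at e1
  rw [c.rho_an h2 e1, add_zero]
  exact ha

theorem rho_X {s t : H} (hs : X V q s) (ht : X V q t) (hne : s ≠ t) {y y' : V}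
    (hy : y ∈ im V s ⊔ im V t) (hy' : y' ∈ im V s ⊔ im V t) (hy0 : y ≠ 0) (hy0' : y' ≠ 0)
    (h : y ∈ fx V (c.rho y')) : X V q (c.rho y) := by
  have e1 := card_le_inf (c.im_rho_le h2 hs ht hne hy) (c.im_rho_le h2 hs ht hne hy')
  have e2 : im V (c.rho y) ⊓ im V (c.rho y') = ⊥ :=
    (AddSubgroup.eq_bot_iff_forall _).2 fun v hv =>
      zero_of_neg h2 ((mem_fx.1 (c.im_le_rho h hv.2)).symm.trans (c.neg_of_mem_rho hv.1))
  rw [e2, AddSubgroup.card_bot, mul_one, (c.split hs ht hne (c.disj_odd h2 hs ht hne)).2.2] at e1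
  have e3 := c.min _ (c.rho_ne h2 hy0')
  refine ⟨c.rho_ne h2 hy0, le_antisymm ?_ (c.min _ (c.rho_ne h2 hy0))⟩
  exact Nat.le_of_mul_le_mul_right ((Nat.mul_le_mul_left _ e3).trans e1) (by have := c.one_lt; omega)

theorem rho_X_nc {s t : H} (hs : X V q s) (ht : X V q t) (hc : s * t ≠ t * s) {δ : V}
    (hδ : δ ∈ im V s ⊔ im V t) (hδ0 : δ ≠ 0) : X V q (c.rho δ) := by
  have hne : s ≠ t := fun h => hc (by rw [h])
  obtain ⟨a, haP, ha⟩ := c.exists_pre hs ht hne (c.disj_odd h2 hs ht hne) hδ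
  obtain ⟨σ, hσ⟩ := c.hom.exists_tau δ
  refine c.rho_X h2 hs ht hne hδ (add_mem haP (add_mem haP hδ)) hδ0 (fun h0 => ?_)
    (c.rho_symm (c.le_rho (hσ.neg ha) (by rw [mem_fx, smul_add, hσ.swap ha, hσ a _ ha, add_comm])))
  have e1 : t • a = -(s • a) := by
    rw [← ha, mul_smul] at h0
    rw [← c.smul_smul hs (t • a), ← smul_neg, neg_eq_of_add_eq_zero_right h0]
  have e2 : s • a - a = 0 := eq_zero_of_mem (c.fx_inf_im hs (Ne.symm hc)) (by
    rw [mem_fx, smul_sub, ← neg_neg (s • a), ← e1, smul_neg, c.smul_smul ht]; abel)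
    (sub_mem_im s a)
  have e3 : t • a - a = 0 := eq_zero_of_mem (c.fx_inf_im ht hc) (by
    rw [mem_fx, smul_sub, e1, smul_neg, c.smul_smul hs]; abel) (sub_mem_im t a)
  rw [mul_smul, sub_eq_zero.1 e3, sub_eq_zero.1 e2] at ha
  exact hδ0 (left_eq_add.1 ha)

theorem exists_line {s t : H} (hs : X V q s) (ht : X V q t) (hc : s * t ≠ t * s) (x : V) :
    ∃ u : H, X V q u ∧ im V u ≤ im V s ⊔ im V t ∧ u • x = x := by
  have hne : s ≠ t := fun h => hc (by rw [h])
  obtain ⟨h1, -, h4⟩ := c.split hs ht hne (c.disj_odd h2 hs ht hne)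
  obtain ⟨a, ha, w, hw, rfl⟩ := AddSubgroup.mem_sup.1 (h1 ▸ AddSubgroup.mem_top x)
  by_cases ha0 : a = 0
  · exact ⟨s, hs, le_sup_left, by rw [ha0, zero_add, mem_fx.1 hw.1]⟩
  have e1 := c.rho_X_nc h2 hs ht hc ha ha0
  have e2 : (im V s ⊔ im V t) ⊓ fx V (c.rho a) ≠ ⊥ := fun h => by
    have e3 := (sup_eq_top_of_index_le h (by
      rw [index_fx, e1.2, h4]; exact Nat.le_mul_self q)).2
    rw [index_fx, e1.2, h4] at e3
    have := c.one_lt
    nlinarith
  obtain ⟨⟨δ, hδ⟩, hδ0⟩ := (AddSubgroup.ne_bot_iff_exists_ne_zero).1 e2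
  refine ⟨c.rho δ, c.rho_X_nc h2 hs ht hc hδ.1 fun h => hδ0 (Subtype.ext h),
    c.im_rho_le h2 hs ht hne hδ.1, ?_⟩
  rw [smul_add, mem_fx.1 (c.rho_symm hδ.2), mem_fx.1 (c.V0_le h2 hs ht hne hδ.1 hw)]

theorem exists_nc {s : H} (hs : X V q s) (h : H) (hne : h * s * h⁻¹ ≠ s)
    (hc : s * (h * s * h⁻¹) = h * s * h⁻¹ * s) :
    ∃ u : H, X V q u ∧ s * u ≠ u * s ∧ ∃ a ∈ im V s, ∃ b ∈ im V (h * s * h⁻¹), b ≠ 0 ∧
      a + b ∈ im V u := by
  obtain ⟨a, ha, ha0⟩ := c.exists_ne_zero hs.1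
  have hs' := c.conj hs h
  have hb := smul_mem_im h ha
  have hb0 : h • a ≠ 0 := fun h0 => ha0 (MulAction.injective h (h0.trans (smul_zero h).symm))
  have hd := c.im_inf hs hs' hne.symm
  obtain ⟨σ, hσ⟩ := c.hom.exists_tau (h • a - a)
  have e1 : h • a = a + (h • a - a) := by abel
  have e2 : a + h • a ∉ im V s := fun h1 => hb0 (eq_zero_of_mem hd (by
    simpa using sub_mem h1 ha) hb)
  have e3 := c.rho_X h2 hs hs' hne.symm (y := a + h • a) (y' := h • a - a)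
    (AddSubgroup.add_mem_sup ha hb)
    (sub_mem (AddSubgroup.mem_sup_right hb) (AddSubgroup.mem_sup_left ha))
    (fun h0 => e2 (h0 ▸ zero_mem _))
    (fun h0 => ha0 (eq_zero_of_mem hd ha (sub_eq_zero.1 h0 ▸ hb)))
    (c.le_rho (hσ.neg e1) (by
      rw [mem_fx, smul_add, hσ a h e1, ← e1]
      conv_lhs => rw [e1, hσ.swap e1, ← e1]
      exact add_comm _ _))
  refine ⟨_, e3, fun h1 => ?_, a, ha, _, hb, hb0, c.mem_rho h2 _⟩
  have e4 := mem_fx.1 (c.im_le_of_comm hs e3 (fun h3 => e2 (h3 ▸ c.mem_rho h2 _)) h1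
    (c.mem_rho h2 _))
  rw [smul_add, c.neg hs ha, mem_fx.1 (c.im_le_of_comm hs hs' hne.symm hc hb)] at e4
  exact ha0 (zero_of_neg h2 (add_right_cancel e4).symm)

theorem inf_eq_bot_of_not_le {s t u : H} (hs : X V q s) (ht : X V q t) (hc : s * t ≠ t * s)
    (hu : X V q u) (hn : ¬im V u ≤ im V s ⊔ im V t) : (im V s ⊔ im V t) ⊓ im V u = ⊥ :=
  (AddSubgroup.eq_bot_iff_forall _).2 fun δ hδ => by
    by_contra h0
    exact hn (c.rho_eq h2 hu hδ.2 h0 ▸ c.im_rho_le h2 hs ht (fun h => hc (by rw [h])) hδ.1)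

theorem rank_three {p : ℕ} (hp : p.Prime) (hV : ∀ v : V, p • v = 0) {s t u a b : H}
    (hs : X V q s) (ht : X V q t) (hc : s * t ≠ t * s) (hu : X V q u)
    (hn : ¬im V u ≤ im V s ⊔ im V t) (ha : X V q a) (hb : X V q b) (hab : a ≠ b)
    (haP : im V a ≤ im V s ⊔ im V t) (hbP : im V b ≤ im V s ⊔ im V t) (hau : a * u ≠ u * a)
    (hbu : b * u ≠ u * b) : False := by
  have hne : s ≠ t := fun h => hc (by rw [h])
  have hd := c.inf_eq_bot_of_not_le h2 hs ht hc hu hn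
  have hU : Nat.card ↥((im V s ⊔ im V t) ⊔ im V u) = q * q * q := by
    rw [card_sup_of_disj hd, (c.split hs ht hne (c.disj_odd h2 hs ht hne)).2.2, hu.2]
  have key : ∀ x : V, q * q ≤ Nat.card ↥(fx V (c.rho x) ⊓ ((im V s ⊔ im V t) ⊔ im V u)) := by
    intro x
    have k1 : ∀ w : H, X V q w → w • x = x → im V w ≤ fx V (c.rho x) := fun w hw hx v hv =>
      c.rho_symm (c.le_rho (c.neg hw hv) (mem_fx.2 hx))
    have k2 : ∀ w w' : H, X V q w → X V q w' → w ≠ w' → w • x = x → w' • x = x →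
        im V w ≤ (im V s ⊔ im V t) ⊔ im V u → im V w' ≤ (im V s ⊔ im V t) ⊔ im V u →
        q * q ≤ Nat.card ↥(fx V (c.rho x) ⊓ ((im V s ⊔ im V t) ⊔ im V u)) := by
      intro w w' hw hw' hne hx hx' h1 h1'
      have := AddSubgroup.card_le_of_le
        (sup_le (le_inf (k1 w hw hx) h1) (le_inf (k1 w' hw' hx') h1'))
      rwa [card_sup_of_disj (c.im_inf hw hw' hne), hw.2, hw'.2] at this
    have k3 : ∀ w e : H, X V q w → X V q e → im V w ≤ im V s ⊔ im V t → im V e ≤ im V s ⊔ im V t →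
        im V w ≤ im V e ⊔ im V u → w = e := by
      intro w e hw he h1 h3 h4
      obtain ⟨d, hd1, hd0⟩ := c.exists_ne_zero hw.1
      obtain ⟨l, hl, l', hl', rfl⟩ := AddSubgroup.mem_sup.1 (h4 hd1)
      have : l' = 0 := eq_zero_of_mem hd (by simpa using sub_mem (h1 hd1) (h3 hl)) hl'
      rw [this, add_zero] at hd1 hd0
      exact c.eq_of_mem hw he hd1 hl hd0
    obtain ⟨w1, x1, l1, f1⟩ := c.exists_line h2 hs ht hc x
    obtain ⟨w2, x2, l2, f2⟩ := c.exists_line h2 ha hu hau x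
    obtain ⟨w3, x3, l3, f3⟩ := c.exists_line h2 hb hu hbu x
    by_cases n2 : w1 = w2
    · by_cases n3 : w1 = w3
      · exact absurd ((k3 w1 a x1 ha l1 haP (n2 ▸ l2)).symm.trans (k3 w1 b x1 hb l1 hbP (n3 ▸ l3)))
          hab
      · exact k2 w1 w3 x1 x3 n3 f1 f3 (l1.trans le_sup_left) (l3.trans (sup_le_sup_right hbP _))
    · exact k2 w1 w2 x1 x2 n2 f1 f2 (l1.trans le_sup_left) (l2.trans (sup_le_sup_right haP _))
  refine friend hp hV ((im V s ⊔ im V t) ⊔ im V u) (fun x => fx V (c.rho x))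
    (fun _ _ h => c.rho_symm h) (fun _ h => c.rho_an h2 h) fun x _ y _ h => ?_
  have e1 := card_le_inf (A := fx V (c.rho x) ⊓ ((im V s ⊔ im V t) ⊔ im V u))
    (B := fx V (c.rho y) ⊓ ((im V s ⊔ im V t) ⊔ im V u)) inf_le_right inf_le_right
  rw [← inf_inf_distrib_right, h, AddSubgroup.card_bot, mul_one, hU] at e1
  have e2 := (Nat.mul_le_mul (key x) (key y)).trans e1
  have e3 := c.one_lt
  have e4 : 0 < q * q * q := by positivity
  nlinarith

theorem comm_of_not_le {p : ℕ} (hp : p.Prime) (hV : ∀ v : V, p • v = 0) {s t u : H}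
    (hs : X V q s) (ht : X V q t) (hc : s * t ≠ t * s) (hu : X V q u)
    (hn : ¬im V u ≤ im V s ⊔ im V t) : s * u = u * s := by
  by_contra h1
  by_cases h3 : t * u = u * t
  · have h4 : s * t * s⁻¹ ≠ s := fun h => hc (by
      rw [mul_inv_eq_iff_eq_mul, mul_right_inj] at h; rw [h])
    refine c.rank_three h2 hp hV hs ht hc hu hn hs (c.conj ht s) h4.symm le_sup_left ?_ h1 ?_
    · rw [c.inv hs, mul_assoc]
      refine (im_mul_le _ _).trans (sup_le le_sup_left ((im_mul_le _ _).trans ?_))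
      rw [sup_comm]
    · intro h5
      have n1 : u ≠ t := fun h => hn (h ▸ le_sup_right)
      have n2 : u ≠ s * t * s⁻¹ := fun h => hn (by
        rw [h, c.inv hs, mul_assoc]
        refine (im_mul_le _ _).trans (sup_le le_sup_left ((im_mul_le _ _).trans ?_))
        rw [sup_comm])
      obtain ⟨d, hd, hd0⟩ := c.exists_ne_zero ht.1
      have e1 := sub_mem (c.im_le_of_comm hu (c.conj ht s) n2 h5.symm (smul_mem_im s hd))
        (c.im_le_of_comm hu ht n1 h3.symm hd)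
      exact h1 (c.comm_of_mem hs e1 (sub_mem_im s d) fun h0 =>
        hc (c.comm_of_mem ht (mem_fx.2 (sub_eq_zero.1 h0)) hd hd0)).symm
  · exact c.rank_three h2 hp hV hs ht hc hu hn hs ht (fun h => hc (by rw [h])) le_sup_left
      le_sup_right h1 h3

theorem plane_odd {p : ℕ} (hp : p.Prime) (hV : ∀ v : V, p • v = 0) :
    (∃ s : H, X V q s ∧ im V s = ⊤) ∨ Plane H V q := by
  obtain ⟨s, hs⟩ := c.ex
  refine or_iff_not_imp_left.2 fun h0 => ?_
  obtain ⟨h, hh⟩ := c.exists_conj_ne hs fun h => h0 ⟨s, hs, h⟩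
  obtain ⟨t, ht, hc⟩ : ∃ t : H, X V q t ∧ s * t ≠ t * s := by
    by_cases hc : s * (h * s * h⁻¹) = h * s * h⁻¹ * s
    · obtain ⟨u, hu, hc, -⟩ := c.exists_nc h2 hs h hh hc
      exact ⟨u, hu, hc⟩
    · exact ⟨_, c.conj hs h, hc⟩
  have hne : s ≠ t := fun h => hc (by rw [h])
  have hP : im V s ⊔ im V t = ⊤ := by
    refine c.eq_top_of_conj hs fun g => ?_
    by_contra hn
    obtain ⟨u, hu, hcu, a, ha, b, hb, hb0, hab⟩ := c.exists_nc h2 hs g
      (fun h => hn (h.symm ▸ le_sup_left)) (c.comm_of_not_le h2 hp hV hs ht hc (c.conj hs g) hn)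
    refine hcu (c.comm_of_not_le h2 hp hV hs ht hc hu fun h => hb0 ?_)
    exact eq_zero_of_mem (c.inf_eq_bot_of_not_le h2 hs ht hc (c.conj hs g) hn)
      (by simpa using sub_mem (h hab) (AddSubgroup.mem_sup_left ha)) hb
  have hd := c.disj_odd h2 hs ht hne
  have h4 := (c.split hs ht hne hd).2.2
  rw [hP] at hd h4
  refine ⟨⟨s, t, hs, ht, by simpa using hd⟩, by simpa using h4, fun x => ?_⟩
  obtain ⟨u, hu, -, hx⟩ := c.exists_line h2 hs ht hc x
  exact ⟨u, hu, hx⟩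

end Ctx

end Cfsg.Lib.Class.Bin
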