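import Cfsg.Agent.Class.Bin.C
import Mathlib.RingTheory.LittleWedderburn
import Mathlib.RingTheory.Norm.Transitivity
import Mathlib.Algebra.Field.Shrink
import Mathlib.Algebra.Ring.Action.End

/-!
# Binary affine permutation groups, the anisotropic plane
-/

set_option autoImplicit false
set_option linter.unusedSectionVars false

namespace Cfsg.Lib.Class.Bin

/-- A finite field with an involutory automorphism is a quadratic extension. -/
theorem exists_quadratic {E : Type} [Field E] [Finite E] (φ : E ≃+* E) (h2 : ∀ x, φ (φ x) = x)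
    (h1 : ∃ x, φ x ≠ x) : ∃ (F : Type) (_ : Field F) (_ : Fintype F) (_ : Algebra F E),
      Module.finrank F E = 2 ∧ (∀ a : E, Algebra.norm F a = 1 ↔ a * φ a = 1) ∧
      (∀ ψ : E ≃ₐ[F] E, (∀ x, ψ x = x) ∨ ∀ x, ψ x = φ x) ∧ ∃ ψ : E ≃ₐ[F] E, ∀ x, ψ x = φ x := by
  classical
  have hφ1 : (φ : RingAut E) ≠ 1 := fun h => by
    obtain ⟨x, hx⟩ := h1
    exact hx (by rw [h]; rfl)
  have hφ2 : (φ : RingAut E) ^ 2 = 1 := by
    rw [pow_two]; ext x; exact h2 x
  have ho : orderOf (φ : RingAut E) = 2 := orderOf_eq_prime hφ2 hφ1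
  let G := Subgroup.zpowers (φ : RingAut E)
  have : Finite (RingAut E) := Finite.of_injective (fun f : RingAut E => (f : E → E))
    DFunLike.coe_injective
  let _ : Fintype G := Fintype.ofFinite G
  have : FaithfulSMul G E := ⟨fun {a b} h => Subtype.ext (RingEquiv.ext h)⟩
  let F := FixedPoints.subfield G E
  let ψ0 : E ≃ₐ[F] E := MulSemiringAction.toAlgAut G F E ⟨φ, Subgroup.mem_zpowers _⟩
  have hψ0 : ∀ x, ψ0 x = φ x := fun _ => rfl
  have hall : ∀ ψ : E ≃ₐ[F] E, ψ = 1 ∨ ψ = ψ0 := by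
    intro ψ
    obtain ⟨⟨g, hg⟩, rfl⟩ := FixedPoints.toAlgAut_surjective G E ψ
    obtain ⟨n, hn, rfl⟩ := Finset.mem_image.1 (mem_zpowers_iff_mem_range_orderOf.1 hg)
    rw [ho, Finset.mem_range] at hn
    interval_cases n
    · left; ext x; rfl
    · right; ext x; rfl
  have hne : (1 : E ≃ₐ[F] E) ≠ ψ0 := fun h => by
    obtain ⟨x, hx⟩ := h1
    exact hx (by rw [← hψ0, ← h]; rfl)
  refine ⟨F, inferInstance, Fintype.ofFinite F, inferInstance, ?_, fun a => ?_, fun ψ => ?_,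
    ψ0, hψ0⟩
  · rw [FixedPoints.finrank_eq_card, ← Nat.card_eq_fintype_card, Nat.card_zpowers, ho]
  · have e1 := Algebra.norm_eq_prod_automorphisms F a
    rw [show (Finset.univ : Finset (E ≃ₐ[F] E)) = {1, ψ0} from
      Finset.ext fun ψ => by simpa using hall ψ, Finset.prod_pair hne] at e1
    rw [← (algebraMap F E).injective.eq_iff, e1, map_one]
    rfl
  · rcases hall ψ with rfl | rfl
    · exact Or.inl fun _ => rfl
    · exact Or.inr hψ0

variable {H V : Type*} [Group H] [AddCommGroup V] [DistribMulAction H V] [Finite V] {q : ℕ}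

/-- `H` acts on `V = E` as the group of maps `x ↦ a x`, `x ↦ a φ(x)` with `a φ(a) = 1`. -/
structure Model (H : Type*) [Group H] [DistribMulAction H V] {E : Type*} [Ring E] (e : V ≃+ E)
    (φ : E ≃+* E) : Prop where
  inv : ∀ x, φ (φ x) = x
  ne : ∃ x, φ x ≠ x
  act : ∀ h : H, ∃ a, a * φ a = 1 ∧ ((∀ v, e (h • v) = a * e v) ∨ ∀ v, e (h • v) = a * φ (e v))
  mul : ∀ a, a * φ a = 1 → ∃ h : H, ∀ v, e (h • v) = a * e v
  frob : ∃ h : H, ∀ v, e (h • v) = φ (e v)

theorem Model.transfer {E E' : Type*} [Ring E] [Ring E'] {e : V ≃+ E} {φ : E ≃+* E}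
    (m : Model H e φ) (ψ : E ≃+* E') :
    Model H (e.trans ψ.toAddEquiv) (ψ.symm.trans (φ.trans ψ)) := by
  refine ⟨fun x => by simp [m.inv], ?_, fun h => ?_, fun a ha => ?_, ?_⟩
  · obtain ⟨x, hx⟩ := m.ne
    exact ⟨ψ x, by simpa using hx⟩
  · obtain ⟨a, ha, h | h⟩ := m.act h
    · exact ⟨ψ a, by simpa [← map_mul] using ha, Or.inl fun v => by simp [h]⟩
    · exact ⟨ψ a, by simpa [← map_mul] using ha, Or.inr fun v => by simp [h]⟩
  · obtain ⟨h, hh⟩ := m.mul (ψ.symm a) (ψ.injective (by simpa using ha))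
    exact ⟨h, fun v => by simp [hh]⟩
  · obtain ⟨h, hh⟩ := m.frob
    exact ⟨h, fun v => by simp [hh]⟩

namespace Ctx

variable (c : Ctx H V q) (pl : Plane H V q)
include c pl

theorem X_of_fix {h : H} (hh : h ≠ 1) {x : V} (hx : h • x = x) (hx0 : x ≠ 0) : X V q h := by
  refine ⟨hh, le_antisymm ?_ (c.min h hh)⟩
  by_contra hlt
  have key : ∀ s : H, X V q s → x ∈ fx V s := by
    intro s hs
    have e1 := card_le_inf (A := im V h) (B := im V s) (U := ⊤) le_top le_top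
    have e2 : im V h ⊓ im V s ≠ ⊥ := fun h0 => by
      rw [h0, AddSubgroup.card_bot, AddSubgroup.card_top, pl.card, hs.2, mul_one] at e1
      exact hlt (Nat.le_of_mul_le_mul_right e1 (by have := c.one_lt; omega))
    obtain ⟨⟨ε, hε⟩, hε0⟩ := (AddSubgroup.ne_bot_iff_exists_ne_zero).1 e2
    obtain ⟨a, ha⟩ := mem_im.1 hε.1
    exact (c.isTau hs hε.2 fun h => hε0 (Subtype.ext h)).fx_le ha (mem_fx.2 hx)
  obtain ⟨s, t, hs, ht, hst⟩ := pl.nc
  exact hx0 (eq_zero_of_mem hst (key s hs) (key t ht))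

theorem not_X_mul {u w : H} (hu : X V q u) (hw : X V q w) : ¬X V q (u * w) := by
  intro h
  have hne : u ≠ w := fun h1 => h.1 (by rw [← h1, c.sq hu])
  have hc : u * w = w * u := by rw [← c.inv h, mul_inv_rev, c.inv hu, c.inv hw]
  have e1 := (c.of_le h hu.1 ((c.fx_mul hu hw hne).le.trans inf_le_left)).1
  have e2 := (c.of_le h hw.1 ((c.fx_mul hu hw hne).le.trans inf_le_right)).1
  have e3 := AddSubgroup.card_le_of_le (sup_le
    (e1 ▸ e2 ▸ c.im_le_of_comm hw hu hne.symm hc.symm : im V u ≤ fx V u)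
    (c.im_le_of_comm hu hw hne hc))
  have e4 := (fx V u).card_mul_index
  rw [card_sup_of_disj (c.im_inf hu hw hne), hu.2, hw.2] at e3
  rw [index_fx, hu.2, pl.card] at e4
  have := c.one_lt
  have e5 := Nat.eq_of_mul_eq_mul_right (by omega) e4
  nlinarith

theorem X_mul {h z : H} (hh : ¬X V q h) (hz : X V q z) : X V q (h * z) := by
  by_cases h1 : h = 1
  · rwa [h1, one_mul]
  have e1 : fx V h⁻¹ = ⊥ := (AddSubgroup.eq_bot_iff_forall _).2 fun x hx => by
    by_contra h0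
    exact hh (c.X_of_fix pl h1 (by rw [← inv_smul_eq_iff.1 (mem_fx.1 hx)]) h0)
  have e2 : im V h⁻¹ = ⊤ := AddSubgroup.eq_top_of_card_eq _ (by
    rw [← index_fx, e1, AddSubgroup.index_bot])
  obtain ⟨d, hd, hd0⟩ := c.exists_ne_zero hz.1
  obtain ⟨a, ha⟩ := mem_im.1 (e2 ▸ AddSubgroup.mem_top d : d ∈ im V h⁻¹)
  refine c.X_of_fix pl (fun h3 => hh ?_) (x := a) ?_ ?_
  · rwa [eq_inv_of_mul_eq_one_left h3, c.inv hz]
  · rw [mul_smul, c.isTau hz hd hd0 a _ ha, ← ha, smul_inv_smul]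
  · rintro rfl
    rw [smul_zero, zero_add] at ha
    exact hd0 ha.symm

omit pl in
theorem inv_not_X {h : H} (hh : ¬X V q h) : ¬X V q h⁻¹ := fun h1 =>
  hh (by rwa [← c.inv h1, inv_inv] at h1)

theorem conj_not_X {k z : H} (hk : ¬X V q k) (hz : X V q z) : z * k * z = k⁻¹ :=
  eq_inv_of_mul_eq_one_right (by rw [← c.sq (c.X_mul pl hk hz)]; group)

theorem comm_not_X {h k : H} (hh : ¬X V q h) (hk : ¬X V q k) : h * k = k * h := by
  obtain ⟨z, hz⟩ := c.ex
  have e1 : ¬X V q (h * k) := fun h1 => hk (by simpa using c.X_mul pl (c.inv_not_X hh) h1)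
  have e2 := c.conj_not_X pl e1 hz
  rw [mul_inv_rev, ← c.conj_not_X pl hh hz, ← c.conj_not_X pl hk hz] at e2
  calc h * k = z⁻¹ * (z * (h * k) * z) * z⁻¹ := by group
    _ = k * (z * z) * h := by rw [e2]; group
    _ = k * h := by rw [c.sq hz, mul_one]

theorem irr_not_X (W : AddSubgroup V) (hW : ∀ k : H, ¬X V q k → ∀ w ∈ W, k • w ∈ W) :
    W = ⊥ ∨ W = ⊤ := by
  refine or_iff_not_imp_left.2 fun h0 => ?_
  obtain ⟨⟨x, hx⟩, hx0⟩ := (AddSubgroup.ne_bot_iff_exists_ne_zero).1 h0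
  obtain ⟨u, hu, hux⟩ := pl.fix x
  refine c.eq_top_of_orbit (d := x) (fun h => hx0 (Subtype.ext h)) fun g => ?_
  by_cases hg : X V q g
  · rw [← hux, ← mul_smul]
    exact hW _ (c.not_X_mul pl hg hu) x hx
  · exact hW g hg x hx

theorem exists_model : ∃ (E : Type) (_ : Field E) (_ : Finite E) (e : V ≃+ E) (φ : E ≃+* E),
    Model H e φ := by
  let ρ : H →* AddMonoid.End V := DistribMulAction.toAddMonoidEnd H V
  have hρ : ∀ (h : H) (v : V), ρ h v = h • v := fun _ _ => rfl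
  let R : Subring (AddMonoid.End V) := Subring.centralizer (ρ '' {k | ¬X V q k})
  have hR : ∀ f : AddMonoid.End V, f ∈ R ↔ ∀ k : H, ¬X V q k → ρ k * f = f * ρ k := fun f =>
    ⟨fun hf k hk => Subring.mem_centralizer_iff.1 hf _ ⟨k, hk, rfl⟩, fun hf =>
      Subring.mem_centralizer_iff.2 (by rintro _ ⟨k, hk, rfl⟩; exact hf k hk)⟩
  have hK : ∀ k : H, ¬X V q k → ρ k ∈ R := fun k hk => (hR _).2 fun h hh => by
    rw [← map_mul, c.comm_not_X pl hh hk, map_mul]
  have hinj : ∀ f : R, ∀ v : V, f.1 v = 0 → f = 0 ∨ v = 0 := by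
    intro f v hv
    refine (c.irr_not_X pl (AddMonoidHom.ker (f.1 : V →+ V)) fun k hk w hw => ?_).symm.imp
      (fun h => Subtype.ext (AddMonoidHom.ext fun w => ?_)) fun h => ?_
    · have := DFunLike.congr_fun ((hR _).1 f.2 k hk) w
      change k • f.1 w = f.1 (k • w) at this
      rw [show f.1 w = 0 from hw, smul_zero] at this
      exact this.symm
    · exact (h ▸ AddSubgroup.mem_top w : w ∈ AddMonoidHom.ker (f.1 : V →+ V))
    · exact AddSubgroup.mem_bot.1 (h ▸ (hv : v ∈ AddMonoidHom.ker (f.1 : V →+ V)))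
  obtain ⟨s, hs, -⟩ := c.ex
  obtain ⟨x0, -, hx0⟩ := c.exists_ne_zero hs
  obtain ⟨z, hz, hzx⟩ := pl.fix x0
  let ev : R →+ V := ⟨⟨fun f => f.1 x0, rfl⟩, fun _ _ => rfl⟩
  have hev : Function.Bijective ev := by
    refine ⟨(injective_iff_map_eq_zero _).2 fun f hf => (hinj f x0 hf).resolve_right hx0,
      AddMonoidHom.range_eq_top.1 ((c.irr_not_X pl _ ?_).resolve_left fun h => hx0 ?_)⟩
    · rintro k hk _ ⟨f, rfl⟩
      exact ⟨⟨ρ k, hK k hk⟩ * f, rfl⟩
    · exact AddSubgroup.mem_bot.1 (h ▸ (⟨1, rfl⟩ : x0 ∈ ev.range))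
  have : Finite R := Finite.of_injective _ hev.1
  have : Nontrivial R := ⟨1, 0, fun h => hx0 (congrArg ev h)⟩
  have : NoZeroDivisors R := ⟨fun {f g} h => by
    refine (hinj f (g.1 x0) (congrArg ev h)).imp id fun h => (hinj g x0 h).resolve_right hx0⟩
  have : IsDomain R := NoZeroDivisors.to_isDomain R
  have hF := Finite.isDomain_to_isField R
  have hzz : ρ z * ρ z = 1 := by rw [← map_mul, c.sq hz, map_one]
  have hφ : ∀ f : R, ρ z * f.1 * ρ z ∈ R := fun f => (hR _).2 fun k hk => by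
    have e1 : ρ k * ρ z = ρ z * ρ k⁻¹ := by
      rw [← map_mul, ← map_mul, ← c.conj_not_X pl hk hz, ← mul_assoc, ← mul_assoc, c.sq hz, one_mul]
    have e2 : ρ z * ρ k = ρ k⁻¹ * ρ z := by
      rw [← map_mul, ← map_mul, ← c.conj_not_X pl hk hz, mul_assoc, c.sq hz, mul_one]
    rw [← mul_assoc, ← mul_assoc, e1, mul_assoc _ _ f.1, (hR _).1 f.2 _ (c.inv_not_X hk),
      mul_assoc _ (ρ z), e2]
    simp only [mul_assoc]
  have hφ2 : ∀ f : AddMonoid.End V, ρ z * (ρ z * f * ρ z) * ρ z = f := fun f => by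
    rw [← mul_assoc, ← mul_assoc, hzz, one_mul, mul_assoc, hzz, mul_one]
  let φ : R ≃+* R :=
    { toFun := fun f => ⟨_, hφ f⟩
      invFun := fun f => ⟨_, hφ f⟩
      left_inv := fun f => Subtype.ext (hφ2 f.1)
      right_inv := fun f => Subtype.ext (hφ2 f.1)
      map_mul' := fun f g => Subtype.ext (by
        show ρ z * (f.1 * g.1) * ρ z = ρ z * f.1 * ρ z * (ρ z * g.1 * ρ z)
        rw [mul_assoc (ρ z * f.1), ← mul_assoc (ρ z) (ρ z * g.1), ← mul_assoc (ρ z) (ρ z), hzz,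
          one_mul]
        simp only [mul_assoc])
      map_add' := fun f g => Subtype.ext (by
        show ρ z * (f.1 + g.1) * ρ z = ρ z * f.1 * ρ z + ρ z * g.1 * ρ z
        rw [mul_add, add_mul]) }
  let e : V ≃+ R := (AddEquiv.ofBijective ev hev).symm
  have he : ∀ (v : V) (f : R), e v = f ↔ f.1 x0 = v := fun v f =>
    (AddEquiv.ofBijective ev hev).symm_apply_eq.trans eq_comm
  have he1 : ∀ v : V, (e v).1 x0 = v := fun v => (he v _).1 rfl
  have hz1 : ∀ v, e (z • v) = φ (e v) := fun v => (he _ _).2 (by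
    show z • (e v).1 (z • x0) = z • v
    rw [hzx, he1])
  have hk1 : ∀ (k : H) (hk : ¬X V q k) (v : V), e (k • v) = ⟨ρ k, hK k hk⟩ * e v :=
    fun k hk v => (he _ _).2 (by
      show k • (e v).1 x0 = k • v
      rw [he1])
  have hk2 : ∀ (k : H) (hk : ¬X V q k), (⟨ρ k, hK k hk⟩ : R) * φ ⟨ρ k, hK k hk⟩ = 1 :=
    fun k hk => Subtype.ext (by
      show ρ k * (ρ z * ρ k * ρ z) = 1
      rw [← map_mul, ← map_mul, c.conj_not_X pl hk hz, ← map_mul, mul_inv_cancel, map_one])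
  have hk3 : ∀ (u : H) (hu : X V q u) (v : V),
      e (u • v) = ⟨ρ (u * z), hK _ (c.not_X_mul pl hu hz)⟩ * φ (e v) := fun u hu v => by
    rw [← hz1, ← hk1 _ (c.not_X_mul pl hu hz), mul_smul, c.smul_smul hz]
  have hinv : ∀ x, φ (φ x) = x := fun f => Subtype.ext (hφ2 f.1)
  have hne : ∃ x, φ x ≠ x := by
    by_contra h
    push Not at h
    exact hz.1 (c.faith z fun v => e.injective (by rw [hz1, h]))
  have M : Model H e φ := by
    refine ⟨hinv, hne, fun h => ?_, fun a ha => ?_, z, hz1⟩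
    · by_cases hh : X V q h
      · exact ⟨_, hk2 _ (c.not_X_mul pl hh hz), Or.inr (hk3 h hh)⟩
      · exact ⟨_, hk2 h hh, Or.inl (hk1 h hh)⟩
    · obtain ⟨b, hb0, hb⟩ : ∃ b : R, b ≠ 0 ∧ a * φ b = b := by
        by_cases h1 : 1 + a = 0
        · obtain ⟨x, hx⟩ := hne
          refine ⟨φ x - x, sub_ne_zero.2 hx, ?_⟩
          rw [eq_neg_of_add_eq_zero_right h1, map_sub, hinv, neg_one_mul, neg_sub]
        · exact ⟨1 + a, h1, by rw [map_add, map_one, mul_add, mul_one, ha, add_comm]⟩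
      obtain ⟨u, hu, hub⟩ := pl.fix (e.symm b)
      have e1 := hk3 u hu (e.symm b)
      rw [hub, e.apply_symm_apply] at e1
      have e2 := mul_right_cancel₀ ((map_ne_zero_iff φ φ.injective).2 hb0) (hb.trans e1)
      exact ⟨u * z, fun v => by rw [hk1 _ (c.not_X_mul pl hu hz), e2]⟩
  let _ := hF.toField
  exact ⟨Shrink.{0} R, inferInstance, Finite.of_equiv _ (equivShrink.{0} R), _, _,
    M.transfer (Shrink.ringEquiv.{0} R).symm⟩

end Ctx

/-- The linear part of the classification. -/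
theorem main [Finite H] [Nontrivial V] (hom : Hom H V) (irr : Irr H V)
    (faith : ∀ h : H, (∀ v : V, h • v = v) → h = 1) :
    ((Nat.card V).Prime ∧ Nat.card H ≤ 2) ∨
      ∃ (E : Type) (_ : Field E) (_ : Finite E) (e : V ≃+ E) (φ : E ≃+* E), Model H e φ := by
  classical
  have prime : (∀ (h : H) (v : V), h • v = v ∨ h • v = -v) → (Nat.card V).Prime := fun h => by
    have : IsSimpleAddGroup V := ⟨fun W _ => irr W fun g w hw => by
      rcases h g w with h | h <;> rw [h]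
      exacts [hw, neg_mem hw]⟩
    exact IsSimpleAddGroup.prime_card
  by_cases h1 : ∃ n : ℕ, ∃ s : H, X V n s
  swap
  · have h2 : ∀ h : H, h = 1 := fun h => by_contra fun h3 => h1 ⟨_, h, h3, rfl⟩
    have : Subsingleton H := ⟨fun a b => by rw [h2 a, h2 b]⟩
    exact Or.inl ⟨prime fun h v => Or.inl (by rw [h2 h, one_smul]), by
      rw [Nat.card_of_subsingleton (1 : H)]; omega⟩
  have c : Ctx H V (Nat.find h1) :=
    ⟨hom, irr, faith, fun h hh => Nat.find_min' h1 ⟨h, hh, rfl⟩, Nat.find_spec h1⟩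
  generalize Nat.find h1 = q at c
  obtain ⟨p, hp, hd⟩ := Nat.exists_prime_and_dvd (Finite.one_lt_card (α := V)).ne'
  have := Fact.mk hp
  obtain ⟨x, hx⟩ := exists_prime_addOrderOf_dvd_card' p hd
  have hV : ∀ v : V, p • v = 0 := by
    have := c.eq_top_of_orbit (P := (nsmulAddMonoidHom p : V →+ V).ker) (d := x)
      (fun h => hp.one_lt.ne (by rw [← hx, h, addOrderOf_zero])) fun g => by
        show p • g • x = 0
        rw [smul_comm, ← hx, addOrderOf_nsmul_eq_zero, smul_zero]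
    exact fun v => (this ▸ AddSubgroup.mem_top v : v ∈ (nsmulAddMonoidHom p : V →+ V).ker)
  rcases hp.eq_two_or_odd' with rfl | ⟨k, hk⟩
  · exact Or.inr (c.exists_model (c.plane_even fun x => by rw [← two_nsmul, hV]))
  have h2 : ∀ x : V, x + x = 0 → x = 0 := fun x hx => by
    have := hV x
    rwa [hk, add_nsmul, mul_nsmul, two_nsmul, hx, nsmul_zero, zero_add, one_nsmul] at this
  rcases c.plane_odd h2 hp hV with ⟨s, hs, hs1⟩ | pl
  · have h3 : ∀ h : H, h = 1 ∨ h = s := fun h => or_iff_not_imp_left.2 fun hh => by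
      have e1 := c.min h hh
      obtain ⟨d, hd, hd0⟩ := c.exists_ne_zero hh
      refine c.eq_of_mem ⟨hh, le_antisymm ?_ e1⟩ hs hd (hs1 ▸ AddSubgroup.mem_top d) hd0
      rw [← hs.2, hs1]
      exact AddSubgroup.card_le_of_le le_top
    refine Or.inl ⟨prime fun h v => (h3 h).imp (fun h => by rw [h, one_smul]) fun h => ?_, ?_⟩
    · rw [h]; exact c.neg hs (hs1 ▸ AddSubgroup.mem_top v)
    · have := Nat.card_le_card_of_surjective (fun b : Bool => if b then (1 : H) else s) fun h => by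
        rcases h3 h with rfl | rfl
        exacts [⟨true, rfl⟩, ⟨false, rfl⟩]
      simpa using this
  · exact Or.inr (c.exists_model pl)

end Cfsg.Lib.Class.Bin
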